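import Mathlib

/-!
# Odd actions on groups of order eight
-/

set_option autoImplicit false
set_option linter.unusedSectionVars false
set_option linter.style.haveILetI false

namespace Cfsg.Agent.Lib.KS84.Action

open MulAction

section Orbit

variable {Γ X : Type*} [Group Γ] [MulAction Γ X] [Finite X]

omit [Finite X] in
theorem orbit_disjoint {x y : X} (h : y ∉ orbit Γ x) : Disjoint (orbit Γ x) (orbit Γ y) := by
  rw [Set.disjoint_left]
  intro v hv1 hv2
  apply h
  have h1 : orbit Γ v = orbit Γ x := orbit_eq_iff.mpr hv1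
  have h2 : orbit Γ v = orbit Γ y := orbit_eq_iff.mpr hv2
  rw [← h1, h2]
  exact mem_orbit_self y

omit [Finite X] in
theorem not_mem_orbit_of_fixed {x₀ x : X} (h0 : ∀ g : Γ, g • x₀ = x₀) (hx : x ≠ x₀) : x₀ ∉ orbit Γ x := by
  rintro ⟨g, hg⟩
  apply hx
  have h1 : g⁻¹ • g • x = g⁻¹ • x₀ := congrArg _ hg
  rw [inv_smul_smul, h0] at h1
  exact h1

/-- An odd action with one fixed point on eight points, with no other fixed points, is transitive off the fixed
point. -/
theorem orbit_card_seven (hX : Nat.card X = 8) {x₀ : X} (h0 : ∀ g : Γ, g • x₀ = x₀)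
    (hodd : ∀ x : X, Odd (orbit Γ x).ncard) (hne : ∀ x, x ≠ x₀ → (orbit Γ x).ncard ≠ 1) :
    ∀ x, x ≠ x₀ → (orbit Γ x).ncard = 7 := by
  classical
  have hfin : ∀ s : Set X, s.Finite := fun s => Set.toFinite s
  have huniv : (Set.univ : Set X).ncard = 8 := by rw [Set.ncard_univ, hX]
  have hex : ∀ s : Set X, s.ncard < 8 → ∃ y, y ∉ s := by
    intro s hs
    by_contra hcon
    push Not at hcon
    have : s = Set.univ := Set.eq_univ_of_forall hcon
    rw [this, huniv] at hs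
    omega
  have hle : ∀ s : Set X, s.ncard ≤ 8 := fun s => by
    rw [← huniv]
    exact Set.ncard_le_ncard (Set.subset_univ s) (hfin _)
  have hsing : ({x₀} : Set X).ncard = 1 := Set.ncard_singleton x₀
  have hdj0 : ∀ x, x ≠ x₀ → Disjoint (orbit Γ x) {x₀} := fun x hx =>
    Set.disjoint_singleton_right.mpr (not_mem_orbit_of_fixed h0 hx)
  intro x hx
  by_contra hx7
  have hc1 := Set.ncard_union_eq (hdj0 x hx) (hfin _) (hfin _)
  rw [hsing] at hc1
  have h1 := hle (orbit Γ x ∪ {x₀})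
  have hodd1 := hodd x
  have hne1 := hne x hx
  obtain ⟨y, hy⟩ := hex (orbit Γ x ∪ {x₀}) (by omega)
  have hyx : y ∉ orbit Γ x := fun h => hy (Or.inl h)
  have hy0 : y ≠ x₀ := fun h => hy (Or.inr h)
  have hodd2 := hodd y
  have hne2 := hne y hy0
  have hdj1 : Disjoint (orbit Γ y) (orbit Γ x ∪ {x₀}) := by
    rw [Set.disjoint_union_right]
    exact ⟨(orbit_disjoint hyx).symm, hdj0 y hy0⟩
  have hc2 := Set.ncard_union_eq hdj1 (hfin _) (hfin _)
  have h2 := hle (orbit Γ y ∪ (orbit Γ x ∪ {x₀}))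
  obtain ⟨a, ha⟩ := hodd1
  obtain ⟨b, hb⟩ := hodd2
  obtain ⟨z, hz⟩ := hex (orbit Γ y ∪ (orbit Γ x ∪ {x₀})) (by omega)
  have hzy : z ∉ orbit Γ y := fun h => hz (Or.inl h)
  have hzx : z ∉ orbit Γ x := fun h => hz (Or.inr (Or.inl h))
  have hz0 : z ≠ x₀ := fun h => hz (Or.inr (Or.inr h))
  have hdj2 : Disjoint (orbit Γ z) (orbit Γ y ∪ (orbit Γ x ∪ {x₀})) := by
    rw [Set.disjoint_union_right, Set.disjoint_union_right]
    exact ⟨(orbit_disjoint hzy).symm, (orbit_disjoint hzx).symm, hdj0 z hz0⟩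
  have hc3 := Set.ncard_union_eq hdj2 (hfin _) (hfin _)
  have h3 := hle (orbit Γ z ∪ (orbit Γ y ∪ (orbit Γ x ∪ {x₀})))
  have hodd3 := hodd z
  have hne3 := hne z hz0
  obtain ⟨c, hc⟩ := hodd3
  omega

/-- Transitivity. -/
theorem exists_smul_eq (hX : Nat.card X = 8) {x₀ : X} (h0 : ∀ g : Γ, g • x₀ = x₀)
    (hodd : ∀ x : X, Odd (orbit Γ x).ncard) (hne : ∀ x, x ≠ x₀ → (orbit Γ x).ncard ≠ 1) {x y : X}
    (hx : x ≠ x₀) (hy : y ≠ x₀) : ∃ g : Γ, g • x = y := by
  classical
  have hfin : ∀ s : Set X, s.Finite := fun s => Set.toFinite s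
  have h7 := orbit_card_seven hX h0 hodd hne x hx
  by_contra hcon
  push Not at hcon
  have hyx : y ∉ orbit Γ x := by
    rintro ⟨g, hg⟩
    exact hcon g hg
  have hsub : orbit Γ x ∪ {y} ∪ {x₀} ⊆ Set.univ := Set.subset_univ _
  have h1 : Disjoint (orbit Γ x) {y} := Set.disjoint_singleton_right.mpr hyx
  have h2 : Disjoint (orbit Γ x ∪ {y}) {x₀} := by
    rw [Set.disjoint_union_left]
    exact ⟨Set.disjoint_singleton_right.mpr (not_mem_orbit_of_fixed h0 hx),
      Set.disjoint_singleton_right.mpr (fun h => hy (Set.mem_singleton_iff.mp h).symm)⟩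
  have h3 := Set.ncard_union_eq h1 (hfin _) (hfin _)
  have h4 := Set.ncard_union_eq h2 (hfin _) (hfin _)
  have h5 := Set.ncard_le_ncard hsub (hfin _)
  rw [Set.ncard_univ, hX] at h5
  rw [Set.ncard_singleton] at h3 h4
  omega

end Orbit

section Char

variable {A Γ : Type*} [Group A] [Group Γ] [Finite A] (act : Γ →* MulAut A)

/-- A nontrivial invariant character with values `±1` if there is a nontrivial fixed point. -/
theorem exists_invariant_sign (hab : ∀ x y : A, x * y = y * x) (h8 : ∀ x : A, x ^ 8 = 1)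
    (hodd : Odd (Nat.card act.range)) {u : A} (hu : u ≠ 1) (hfix : ∀ γ, act γ u = u) :
    ∃ lam : A →* ℂˣ, (∀ γ x, lam (act γ x) = lam x) ∧ (∃ a, lam a ≠ 1) ∧ ∀ x, (lam x) ^ 2 = 1 := by
  classical
  obtain ⟨ψ, hψ⟩ : ∃ ψ : A →* ℂˣ, ψ u ≠ 1 := by
    letI : CommGroup A := { (inferInstance : Group A) with mul_comm := hab }
    exact CommGroup.exists_apply_ne_one_of_hasEnoughRootsOfUnity A ℂ hu
  letI : Fintype act.range := Fintype.ofFinite _
  let lam : A →* ℂˣ :=
    { toFun := fun x => ∏ σ : act.range, ψ ((σ : MulAut A) x)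
      map_one' := by simp
      map_mul' := fun x y => by
        simp only [map_mul]
        rw [Finset.prod_mul_distrib] }
  have hlam : ∀ x, lam x = ∏ σ : act.range, ψ ((σ : MulAut A) x) := fun _ => rfl
  have hinv : ∀ γ x, lam (act γ x) = lam x := by
    intro γ x
    rw [hlam, hlam]
    let τ : act.range := ⟨act γ, MonoidHom.mem_range.mpr ⟨γ, rfl⟩⟩
    refine Fintype.prod_equiv (Equiv.mulRight τ) _ _ fun σ => ?_
    rfl
  have hlamu : lam u = ψ u ^ Nat.card act.range := by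
    rw [hlam, Nat.card_eq_fintype_card, ← Finset.card_univ, ← Finset.prod_const]
    refine Finset.prod_congr rfl fun σ _ => ?_
    obtain ⟨γ, hγ⟩ := MonoidHom.mem_range.mp σ.2
    rw [← hγ, hfix]
  have hne : lam u ≠ 1 := by
    rw [hlamu]
    intro h1
    apply hψ
    have h2 : ψ u ^ 8 = 1 := by rw [← map_pow, h8, map_one]
    obtain ⟨m, hm⟩ := hodd
    have h3 : ψ u ^ (2 * m + 1) = 1 := by rw [← hm]; exact h1
    have h4 : orderOf (ψ u) ∣ Nat.gcd 8 (2 * m + 1) :=
      Nat.dvd_gcd (orderOf_dvd_of_pow_eq_one h2) (orderOf_dvd_of_pow_eq_one h3)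
    have h5 : Nat.gcd 8 (2 * m + 1) = 1 := by
      have : Nat.Coprime (2 ^ 3) (2 * m + 1) := Nat.Coprime.pow_left 3 (by simp)
      simpa using this
    rw [h5, Nat.dvd_one, orderOf_eq_one_iff] at h4
    exact h4
  have h8lam : ∀ x, lam x ^ 8 = 1 := fun x => by rw [← map_pow, h8, map_one]
  by_cases h4 : ∃ a, lam a ^ 4 ≠ 1
  · refine ⟨lam ^ 4, fun γ x => ?_, ?_, fun x => ?_⟩
    · simp only [MonoidHom.pow_apply, hinv]
    · obtain ⟨a, ha⟩ := h4
      exact ⟨a, by simpa using ha⟩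
    · simp only [MonoidHom.pow_apply]
      rw [← pow_mul]
      exact h8lam x
  · push Not at h4
    by_cases h2 : ∃ a, lam a ^ 2 ≠ 1
    · refine ⟨lam ^ 2, fun γ x => ?_, ?_, fun x => ?_⟩
      · simp only [MonoidHom.pow_apply, hinv]
      · obtain ⟨a, ha⟩ := h2
        exact ⟨a, by simpa using ha⟩
      · simp only [MonoidHom.pow_apply]
        rw [← pow_mul]
        exact h4 x
    · push Not at h2
      exact ⟨lam, hinv, ⟨u, hne⟩, h2⟩

end Char

end Cfsg.Agent.Lib.KS84.Action
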