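import Mathlib
import Cfsg.Agent.Lib.KS84.Block
import Cfsg.Agent.Lib.KS84.Action
import Cfsg.Agent.Lib.KS84.Dom
import Cfsg.Agent.Lib.Star.Wat3

/-!
# A block of rank one with five characters does not have an abelian defect group of order eight
-/

set_option autoImplicit false
set_option linter.unusedSectionVars false
set_option linter.style.haveILetI false

namespace Cfsg.Agent.Lib.KS84.Final

open Cfsg MonoidAlgebra
open Cfsg.Agent.Lib.Blocks.Local Cfsg.Agent.Lib.Blocks.Central Cfsg.Agent.Lib.Blocks.Brauer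
open Cfsg.Agent.Lib.BlockH.Transport Cfsg.Agent.Lib.BlockH.Subpair Cfsg.Agent.Lib.BlockH.SubpairLE
open Cfsg.Agent.Lib.BlockH.ConjPair Cfsg.Agent.Lib.BlockH.MaxPair Cfsg.Agent.Lib.BlockH.Descent
open Cfsg.Agent.Lib.BlockH.InducedPairs
open Cfsg.Agent.Lib.BP.StarDefs Cfsg.Agent.Lib.BP.Star1
open Cfsg.Agent.Lib.BP.Star2 Cfsg.Agent.Lib.BP.Star3 Cfsg.Agent.Lib.BP.Rob1 Cfsg.Agent.Lib.BP.Rob2
open Cfsg.Agent.Lib.BP.Nil1 Cfsg.Agent.Lib.BP.Nil2
open Cfsg.Agent.Lib.Char.Basic Cfsg.Agent.Lib.Char.Complete Cfsg.Agent.Lib.Char.Ortho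
open Cfsg.Agent.Lib.Star.Wat1 Cfsg.Agent.Lib.Star.Wat3
open Cfsg.Agent.Lib.KS84.Action

universe u

variable {G : Type u} [Group G] [Fintype G] {M : Ideal AlgInt}

attribute [local instance] fK fIrr fBl

/-- A block of rank one with five characters does not have an abelian defect group of order eight. -/
theorem no_abelian_eight [Fact (Nat.Prime 2)] (hM : IsPModular 2 M) {B : Set (IrrCharacter G)} (hB : IsPBlock M B)
    {P : Subgroup G} (hP : IsDefectGroup 2 M B P) (hl : blockRank 2 B = 1) (hk : Nat.card B = 5)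
    (h8 : Nat.card P = 8) (hab : ∀ x ∈ P, ∀ y ∈ P, x * y = y * x) : False := by
  classical
  haveI := isPrime_of_pModular hM
  obtain ⟨e, hmax⟩ := Cfsg.Agent.Lib.BP.Nil4.exists_pair_of_defect hM hB hP
  set T := stabSub P e with hT
  have hTn : T ≤ Subgroup.normalizer (P : Set G) := stabSub_le_normalizer
  let act : T →* MulAut P := P.normalizerMonoidHom.comp (Subgroup.inclusion hTn)
  have hact : ∀ (n : T) (w : P), ((act n w : P) : G) = n * w * (n : G)⁻¹ := fun n w => rfl
  letI : MulAction T P := MulAction.compHom P act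
  have hsmul : ∀ (n : T) (w : P), ((n • w : P) : G) = n * w * (n : G)⁻¹ := fun n w => rfl
  have hkerle : ∀ w : P, act.ker ≤ MulAction.stabilizer T w := by
    intro w n hn
    rw [MulAction.mem_stabilizer_iff]
    have h1 : act n = 1 := hn
    show act n w = w
    rw [h1]
    rfl
  have hkerL : act.ker = (Subgroup.centralizer (P : Set G)).subgroupOf T := by
    ext n
    rw [MonoidHom.mem_ker, Subgroup.mem_subgroupOf, Subgroup.mem_centralizer_iff]
    constructor
    · intro h a ha
      have h1 : ((act n ⟨a, ha⟩ : P) : G) = a := by rw [h]; rfl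
      rw [hact] at h1
      show a * (n : G) = (n : G) * a
      rw [← h1]
      simp only [inv_mul_cancel_right]
      rw [h1]
    · intro h
      ext w
      rw [hact]
      have h1 := h w w.2
      show (n : G) * w * (n : G)⁻¹ = w
      have h2 : (w : G) * n = n * w := h1
      rw [← h2, mul_inv_cancel_right]
  have hLodd : ¬ 2 ∣ Nat.card act.range := by
    rw [← Subgroup.index_ker, hkerL]
    exact Cfsg.Agent.Lib.BlockH.CyclicDefect.not_dvd_relIndex_stab hM hmax hab
  have hindex : ∀ w : P, (MulAction.stabilizer T w).index = (MulAction.orbit T w).ncard :=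
    fun w => MulAction.index_stabilizer T w
  have hodvd : ∀ w : P, (MulAction.orbit T w).ncard ∣ Nat.card act.range := by
    intro w
    rw [← hindex, ← Subgroup.index_ker]
    exact Subgroup.index_dvd_of_le (hkerle w)
  have hcardT : ∀ w : P, Nat.card (T ⊓ cZ (w : G) : Subgroup G) * (MulAction.orbit T w).ncard = Nat.card T := by
    intro w
    rw [← hindex, ← Subgroup.card_mul_index (MulAction.stabilizer T w)]
    congr 1
    refine Nat.card_congr ⟨fun x => ⟨⟨x.1, x.2.1⟩, ?_⟩, fun y => ⟨y.1, ⟨y.1.2, ?_⟩⟩, fun _ => rfl, fun _ => rfl⟩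
    · rw [MulAction.mem_stabilizer_iff]
      apply Subtype.ext
      rw [hsmul]
      have h1 : (x : G) ∈ cZ (w : G) := x.2.2
      rw [mem_cZ] at h1
      show (x : G) * w * (x : G)⁻¹ = w
      rw [h1.eq, mul_inv_cancel_right]
    · have h1 := y.2
      rw [MulAction.mem_stabilizer_iff] at h1
      have h2 : ((y : T) : G) * w * ((y : T) : G)⁻¹ = w := congrArg Subtype.val h1
      show ((y : T) : G) ∈ cZ (w : G)
      rw [mem_cZ]
      show ((y : T) : G) * w = w * ((y : T) : G)
      nth_rewrite 2 [← h2]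
      rw [inv_mul_cancel_right]
  set l : P → ℕ := fun w => blockRank 2 (bb 2 M e (w : G)) with hldef
  have hone : ∀ w : P, ((MulAction.orbit T w).ncard : ℂ) ≠ 0 := by
    intro w
    have h1 : (MulAction.orbit T w).ncard ≠ 0 := by
      intro h0
      have h2 := hodvd w
      rw [h0] at h2
      exact hLodd (by rw [Nat.eq_zero_of_zero_dvd h2]; exact dvd_zero _)
    exact_mod_cast h1
  have hrho : ∀ w : P, rho 2 M e (w : G) = (l w : ℂ) / ((MulAction.orbit T w).ncard : ℂ) := by
    intro w
    have h1 := hcardT w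
    have h2 : ((Nat.card (T ⊓ cZ (w : G) : Subgroup G) : ℕ) : ℂ) ≠ 0 := by
      exact_mod_cast Nat.card_pos.ne'
    have h3 := hone w
    rw [rho, ← h1]
    push_cast
    field_simp
    exact mul_comm _ _
  have hab' : ∀ x y : P, x * y = y * x := fun x y => Subtype.ext (hab x x.2 y y.2)
  have h8' : ∀ x : P, x ^ 8 = 1 := by
    intro x
    rw [← h8]
    exact pow_card_eq_one'
  have hs1 := sum_rho hM hmax hab
  rw [hk] at hs1
  by_cases hfix : ∃ u : P, u ≠ 1 ∧ ∀ n : T, act n u = u
  · obtain ⟨u, hu, hufix⟩ := hfix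
    have hLodd' : Odd (Nat.card act.range) := by
      rw [← Nat.not_even_iff_odd, even_iff_two_dvd]
      exact hLodd
    obtain ⟨lam, hinv, hne, hsq⟩ := exists_invariant_sign act hab' h8' hLodd' hu hufix
    have hs0 := sum_rho_eq_zero hM hmax hab lam (fun n hn x y hxy => by
      have h1 : y = act ⟨n, hn⟩ x := Subtype.ext (by rw [hact]; exact hxy.symm)
      rw [h1, hinv]) hne
    set L := Nat.card act.range with hL
    choose q hq using hodvd
    set s : P → ℕ := fun w => if lam w = 1 then 1 else 0 with hs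
    have hsval : ∀ w : P, 1 + ((lam w : ℂˣ) : ℂ) = 2 * (s w : ℂ) := by
      intro w
      by_cases h1 : lam w = 1
      · simp only [hs, if_pos h1, h1]
        norm_num
      · simp only [hs, if_neg h1]
        have h2 : (((lam w : ℂˣ) : ℂ)) * ((lam w : ℂˣ) : ℂ) = 1 := by
          have := congrArg (fun x : ℂˣ => (x : ℂ)) (hsq w)
          simpa [sq] using this
        rcases mul_self_eq_one_iff.mp h2 with h3 | h3
        · exact absurd (Units.ext (by simpa using h3)) h1
        · rw [h3]
          norm_num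
    have hmain : ((2 * ∑ w : P, s w * (l w * q w) : ℕ) : ℂ) = ((5 * L : ℕ) : ℂ) := by
      have hLr : ∀ w : P, (L : ℂ) * rho 2 M e (w : G) = ((l w * q w : ℕ) : ℂ) := by
        intro w
        rw [hrho w]
        have h1 : (L : ℂ) = ((MulAction.orbit T w).ncard : ℂ) * (q w : ℂ) := by
          exact_mod_cast hq w
        rw [h1]
        push_cast
        have := hone w
        field_simp
      have h1 : ∑ w : P, (1 + ((lam w : ℂˣ) : ℂ)) * rho 2 M e (w : G) = 5 := by
        simp only [add_mul, one_mul]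
        rw [Finset.sum_add_distrib, hs1, hs0]
        norm_num
      calc ((2 * ∑ w : P, s w * (l w * q w) : ℕ) : ℂ)
          = (L : ℂ) * ∑ w : P, (1 + ((lam w : ℂˣ) : ℂ)) * rho 2 M e (w : G) := by
            push_cast
            rw [Finset.mul_sum, Finset.mul_sum]
            refine Finset.sum_congr rfl fun w _ => ?_
            rw [hsval w]
            have h2 := hLr w
            push_cast at h2
            linear_combination (-2 * (s w : ℂ)) * h2
        _ = _ := by
            rw [h1]
            push_cast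
            ring
    have hmain' : 2 * ∑ w : P, s w * (l w * q w) = 5 * L := by exact_mod_cast hmain
    apply hLodd
    have h2 : 2 ∣ 5 * L := ⟨_, hmain'.symm⟩
    exact (Nat.Coprime.dvd_mul_left (by norm_num : Nat.Coprime 2 5)).mp h2
  · push Not at hfix
    have h0 : ∀ n : T, n • (1 : P) = 1 := fun n => map_one (act n)
    have hoddo : ∀ x : P, Odd (MulAction.orbit T x).ncard := by
      intro x
      rw [← Nat.not_even_iff_odd, even_iff_two_dvd]
      exact fun h => hLodd (h.trans (hodvd x))
    have hneo : ∀ x : P, x ≠ 1 → (MulAction.orbit T x).ncard ≠ 1 := by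
      intro x hx h1
      obtain ⟨n, hn⟩ := hfix x hx
      obtain ⟨y, hy⟩ := Set.ncard_eq_one.mp h1
      have h2 : x ∈ MulAction.orbit T x := MulAction.mem_orbit_self x
      have h3 : act n x ∈ MulAction.orbit T x := ⟨n, rfl⟩
      rw [hy] at h2 h3
      exact hn (h3.trans h2.symm)
    have h7 := orbit_card_seven h8 h0 hoddo hneo
    obtain ⟨w₁, hw₁⟩ : ∃ w₁ : P, orderOf w₁ = 2 := exists_prime_orderOf_dvd_card' 2 (by rw [h8]; norm_num)
    have hw₁ne : w₁ ≠ 1 := by
      rintro rfl
      rw [orderOf_one] at hw₁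
      omega
    have hinvol : ∀ w : P, w ≠ 1 → orderOf (w : G) = 2 := by
      intro w hw
      obtain ⟨n, hn⟩ := exists_smul_eq h8 h0 hoddo hneo hw₁ne hw
      rw [← hn, hsmul, Cfsg.Agent.Lib.Blocks.DomRank.orderOf_conj', Subgroup.orderOf_coe, hw₁]
    have hd3 : blockDefect 2 B = 3 := by
      have h1 := Cfsg.Agent.Lib.Blocks.Inducing.card_eq_pow_blockDefect hM hB hP
      rw [h8, show (8 : ℕ) = 2 ^ 3 by norm_num] at h1
      exact (Nat.pow_right_injective (le_refl 2) h1).symm
    have hl3 : ∀ w : P, w ≠ 1 → l w ≤ 3 := fun w hw =>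
      Cfsg.Agent.Lib.KS84.Dom.blockRank_le_three_of_involution hM (hinvol w hw) (cZ_eq _) (bb_spec hM hmax w.2).1
        (by rw [blockDefect_eq hM hmax hab w.2 (bb_spec hM hmax w.2).2, hd3])
    have hr1 : rho 2 M e ((1 : P) : G) = 1 := by
      rw [Subgroup.coe_one, rho_of_central hM hmax (one_mem P) (fun g => by simp), hl]
      norm_num
    rw [← Finset.add_sum_erase _ _ (Finset.mem_univ (1 : P)), hr1] at hs1
    have hs2 : ∑ w ∈ Finset.univ.erase (1 : P), rho 2 M e (w : G) =
        ((∑ w ∈ Finset.univ.erase (1 : P), l w : ℕ) : ℂ) / 7 := by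
      push_cast
      rw [Finset.sum_div]
      refine Finset.sum_congr rfl fun w hw => ?_
      rw [hrho w, h7 w (Finset.ne_of_mem_erase hw)]
      norm_num
    rw [hs2] at hs1
    have h28 : ((∑ w ∈ Finset.univ.erase (1 : P), l w : ℕ) : ℂ) = ((28 : ℕ) : ℂ) := by
      push_cast at hs1 ⊢
      linear_combination 7 * hs1
    have h28' : ∑ w ∈ Finset.univ.erase (1 : P), l w = 28 := by exact_mod_cast h28
    have hle : ∑ w ∈ Finset.univ.erase (1 : P), l w ≤ ∑ w ∈ Finset.univ.erase (1 : P), 3 :=
      Finset.sum_le_sum fun w hw => hl3 w (Finset.ne_of_mem_erase hw)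
    have hcardE : (Finset.univ.erase (1 : P)).card = 7 := by
      rw [Finset.card_erase_of_mem (Finset.mem_univ _), Finset.card_univ, ← Nat.card_eq_fintype_card, h8]
    rw [Finset.sum_const, hcardE, h28'] at hle
    simp at hle

end Cfsg.Agent.Lib.KS84.Final
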